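import Mathlib

/-! Five reflections forming a chain span a space of dimension five. -/

set_option autoImplicit false

namespace Cfsg.Agent.Gr.MinD

open Module

variable {Y : Type*} [AddCommGroup Y] [Module ℂ Y]

/-- `s` is the reflection with root `r` and coroot `f`. -/
structure Rf (s : End ℂ Y) (r : Y) (f : Y →ₗ[ℂ] ℂ) : Prop where
  ap : ∀ v, s v = v - f v • r
  two : f r = 2

theorem exists_Rf [FiniteDimensional ℂ Y] {s : End ℂ Y} (h : s * s = 1) (hs : s ≠ 1)
    (h1 : finrank ℂ (LinearMap.range (1 - s)) ≤ 1) : ∃ r f, Rf s r f := by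
  have h0 : LinearMap.range (1 - s) ≠ ⊥ := fun e =>
    hs (sub_eq_zero.1 (LinearMap.range_eq_bot.1 e)).symm
  have h2 : finrank ℂ (LinearMap.range (1 - s)) = 1 :=
    le_antisymm h1 (Nat.one_le_iff_ne_zero.2 fun e => h0 (Submodule.finrank_eq_zero.1 e))
  let b := Module.finBasisOfFinrankEq ℂ _ h2
  let f : Y →ₗ[ℂ] ℂ := b.coord 0 ∘ₗ (1 - s).rangeRestrict
  have e : ∀ v, s v = v - f v • (b 0 : Y) := fun v => by
    have := congrArg Subtype.val (b.sum_repr ((1 - s).rangeRestrict v))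
    rw [Fin.sum_univ_one] at this
    exact eq_sub_of_add_eq' (eq_sub_iff_add_eq.1 this)
  refine ⟨b 0, f, e, ?_⟩
  obtain ⟨v, hv⟩ := (b 0).2
  have e1 : s (b 0) = -(b 0 : Y) := by
    rw [← hv, LinearMap.sub_apply, End.one_apply, map_sub, ← End.mul_apply, h, End.one_apply, neg_sub]
  have e2 : (f (b 0) - 2) • (b 0 : Y) = 0 := by
    rw [e] at e1
    linear_combination (norm := module) -e1
  exact sub_eq_zero.1 ((smul_eq_zero.1 e2).resolve_right fun k => b.ne_zero 0 (Subtype.ext k))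

variable {s s' : End ℂ Y} {r r' : Y} {f f' : Y →ₗ[ℂ] ℂ}

theorem Rf.conj (h : Rf s r f) (q : s * s = 1) (q' : s' * s' = 1) (b : s * s' * s = s' * s * s') :
    ∃ r' f', Rf s' r' f' := by
  have e : s' = s * s' * s * (s' * s) := by
    rw [b, mul_assoc, ← mul_assoc s' s', q', one_mul, mul_assoc, q, mul_one]
  have e1 : ∀ v, s (s' (s' (s v))) = v := fun v => by
    rw [← End.mul_apply s' s', q', End.one_apply, ← End.mul_apply, q, End.one_apply]
  have e2 : ∀ v, s' (s (s (s' v))) = v := fun v => by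
    rw [← End.mul_apply s s, q, End.one_apply, ← End.mul_apply, q', End.one_apply]
  refine ⟨s (s' r), f ∘ₗ (s' * s), fun v => ?_, ?_⟩
  · conv_lhs => rw [e]
    simp only [End.mul_apply, LinearMap.comp_apply]
    rw [h.ap (s' (s v)), map_sub, map_sub, e1, map_smul, map_smul]
  · simp only [End.mul_apply, LinearMap.comp_apply]
    rw [e2, h.two]

theorem Rf.comm (h : Rf s r f) (h' : Rf s' r' f') (c : s * s' = s' * s) (v : Y) :
    (f' v * f r') • r = (f v * f' r) • r' := by
  have := LinearMap.congr_fun c v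
  simp only [End.mul_apply, h.ap, h'.ap, map_sub, map_smul, smul_eq_mul] at this
  linear_combination (norm := module) this

theorem Rf.braid (h : Rf s r f) (h' : Rf s' r' f') (b : s * s' * s = s' * s * s') :
    (2 * (1 - f r' * f' r)) • r = ((1 - f r' * f' r) * f' r) • r' := by
  have := LinearMap.congr_fun b r
  simp only [End.mul_apply, h.ap, h'.ap, map_sub, map_smul, smul_eq_mul, h.two, h'.two] at this
  linear_combination (norm := module) this

theorem Rf.ne (h : Rf s r f) (h' : Rf s' r' f') (b : s * s' * s = s' * s * s') :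
    f r' ≠ 0 ∧ f' r ≠ 0 := by
  have := congrArg f (h.braid h' b)
  simp only [map_smul, smul_eq_mul, h.two] at this
  constructor <;> intro e <;> rw [e] at this <;> norm_num at this

theorem Rf.one (h : Rf s r f) (h' : Rf s' r' f') (b : s * s' * s = s' * s * s') (g : Y →ₗ[ℂ] ℂ)
    (g1 : g r = 0) (g2 : g r' ≠ 0) : f r' * f' r = 1 := by
  have := congrArg g (h.braid h' b)
  simp only [map_smul, smul_eq_mul, g1, mul_zero] at this
  exact (sub_eq_zero.1 ((mul_eq_zero.1 ((mul_eq_zero.1 this.symm).resolve_right g2)).resolve_right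
    (h.ne h' b).2)).symm

theorem Rf.zero (h : Rf s r f) (h' : Rf s' r' f') (c : s * s' = s' * s) (g : Y →ₗ[ℂ] ℂ)
    (g1 : g r = 0) (g2 : g r' ≠ 0) : f r' = 0 ∧ f' r = 0 := by
  have e1 := congrArg g (h.comm h' c r)
  simp only [map_smul, smul_eq_mul, g1, mul_zero, h.two] at e1
  have e2 : f' r = 0 := by
    have := (mul_eq_zero.1 e1.symm).resolve_right g2
    linear_combination this / 2
  have e3 := congrArg f (h.comm h' c r')
  simp only [map_smul, smul_eq_mul, e2, mul_zero, zero_mul, h.two, h'.two] at e3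
  exact ⟨by linear_combination e3 / 4, e2⟩

theorem Rf.zero' (h : Rf s r f) (h' : Rf s' r' f') (c : s * s' = s' * s)
    (i : ∀ a b : ℂ, a • r = b • r' → a = 0 ∧ b = 0) : f r' = 0 ∧ f' r = 0 := by
  have e1 := (i _ _ (h.comm h' c r)).2
  have e2 := (i _ _ (h.comm h' c r')).1
  rw [h.two] at e1
  rw [h'.two] at e2
  exact ⟨by linear_combination e2 / 2, by linear_combination e1 / 2⟩

theorem cox [FiniteDimensional ℂ Y] {s1 s2 s3 s4 s5 : End ℂ Y} (q1 : s1 * s1 = 1)
    (q2 : s2 * s2 = 1) (q3 : s3 * s3 = 1) (q4 : s4 * s4 = 1) (q5 : s5 * s5 = 1)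
    (b12 : s1 * s2 * s1 = s2 * s1 * s2) (b23 : s2 * s3 * s2 = s3 * s2 * s3)
    (b34 : s3 * s4 * s3 = s4 * s3 * s4) (b45 : s4 * s5 * s4 = s5 * s4 * s5)
    (c13 : s1 * s3 = s3 * s1) (c14 : s1 * s4 = s4 * s1) (c15 : s1 * s5 = s5 * s1)
    (c24 : s2 * s4 = s4 * s2) (c35 : s3 * s5 = s5 * s3)
    (w : s2 * s5 * (s2 * s5) * s1 * (s2 * s5 * (s2 * s5)) = s1)
    (h1 : finrank ℂ (LinearMap.range (1 - s1)) ≤ 1)
    (h3 : 3 ≤ finrank ℂ (LinearMap.range (1 - s1 * s3 * s5))) : 5 ≤ finrank ℂ Y := by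
  have k : ∀ {s s' : End ℂ Y}, s' * s' = 1 → s * s' * s = s' * s * s' → s = 1 → s' = 1 := by
    rintro _ s' q b rfl
    rwa [mul_one, one_mul, mul_one, q] at b
  have n1 : s1 ≠ 1 := fun e => by
    have e3 := k q3 b23 (k q2 b12 e)
    rw [e, e3, k q5 b45 (k q4 b34 e3), mul_one, mul_one, sub_self,
      LinearMap.range_zero, finrank_bot] at h3
    omega
  obtain ⟨r1, f1, H1⟩ := exists_Rf q1 n1 h1
  obtain ⟨r2, f2, H2⟩ := H1.conj q1 q2 b12
  obtain ⟨r3, f3, H3⟩ := H2.conj q2 q3 b23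
  obtain ⟨r4, f4, H4⟩ := H3.conj q3 q4 b34
  obtain ⟨r5, f5, H5⟩ := H4.conj q4 q5 b45
  have hl : LinearIndependent ℂ ![r1, r3, r5] := by
    rw [linearIndependent_iff_card_le_finrank_span]
    refine h3.trans (Submodule.finrank_mono ?_)
    rintro _ ⟨v, rfl⟩
    have : (1 - s1 * s3 * s5) v = f1 (s3 (s5 v)) • r1 + f3 (s5 v) • r3 + f5 v • r5 := by
      simp only [LinearMap.sub_apply, End.one_apply, End.mul_apply]
      rw [H1.ap, H3.ap (s5 v), H5.ap v]
      abel
    rw [this]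
    refine Submodule.add_mem _ (Submodule.add_mem _ ?_ ?_) ?_ <;>
      refine Submodule.smul_mem _ _ (Submodule.subset_span ?_)
    exacts [⟨0, rfl⟩, ⟨1, rfl⟩, ⟨2, rfl⟩]
  have hi : ∀ a b c : ℂ, a • r1 + b • r3 + c • r5 = 0 → a = 0 ∧ b = 0 ∧ c = 0 := fun a b c e => by
    have := Fintype.linearIndependent_iff.1 hl ![a, b, c] (by rw [Fin.sum_univ_three]; exact e)
    exact ⟨this 0, this 1, this 2⟩
  obtain ⟨a13, a31⟩ := H1.zero' H3 c13 fun a b e => by
    have := hi a (-b) 0 (by linear_combination (norm := module) e)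
    exact ⟨this.1, neg_eq_zero.1 this.2.1⟩
  obtain ⟨a15, a51⟩ := H1.zero' H5 c15 fun a b e => by
    have := hi a 0 (-b) (by linear_combination (norm := module) e)
    exact ⟨this.1, neg_eq_zero.1 this.2.2⟩
  obtain ⟨a35, a53⟩ := H3.zero' H5 c35 fun a b e => by
    have := hi 0 a (-b) (by linear_combination (norm := module) e)
    exact ⟨this.2.1, neg_eq_zero.1 this.2.2⟩
  obtain ⟨n12, n21⟩ := H1.ne H2 b12
  obtain ⟨n23, n32⟩ := H2.ne H3 b23
  obtain ⟨n34, n43⟩ := H3.ne H4 b34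
  obtain ⟨n45, n54⟩ := H4.ne H5 b45
  have p12 := H1.one H2 b12 f3 a31 n32
  have p23 := H3.one H2 b23.symm f1 a13 n12
  have p34 := H3.one H4 b34 f5 a53 n54
  have p45 := H5.one H4 b45.symm f3 a35 n34
  obtain ⟨a14, a41⟩ := H1.zero H4 c14 f3 a31 n34
  obtain ⟨a42, a24⟩ := H4.zero H2 c24.symm f1 a14 n12
  have hw : ∀ v, (s2 * s5 * (s2 * s5)) v = v + ((f2 r5 * f5 r2) * (f2 r5 * f5 v - f2 v) -
      f2 r5 * f5 v) • r2 - ((f2 r5 * f5 v - f2 v) * f5 r2) • r5 := fun v => by
    simp only [End.mul_apply, H2.ap, H5.ap, map_sub, map_smul, smul_eq_mul, H2.two, H5.two]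
    module
  have hw1 : ∀ v, (f2 r5 * f5 r2) * (f2 r5 * f5 v - f2 v) - f2 r5 * f5 v = 0 := fun v => by
    have e := LinearMap.congr_fun w v
    rw [End.mul_apply, End.mul_apply _ s1, hw, H1.ap, H1.ap v] at e
    generalize (f2 r5 * f5 r2) * (f2 r5 * f5 _ - f2 _) - f2 r5 * f5 (_ - _) = x at e
    generalize (f2 r5 * f5 (_ - _) - f2 _) * f5 r2 = y at e
    rw [hw] at e
    generalize (f2 r5 * f5 r2) * (f2 r5 * f5 v - f2 v) - f2 r5 * f5 v = α at e ⊢
    generalize (f2 r5 * f5 v - f2 v) * f5 r2 = β at e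
    simp only [map_sub, map_add, map_smul, smul_eq_mul, a15] at e
    have e3 := congrArg f3 e
    simp only [map_sub, map_add, map_smul, smul_eq_mul, a31, a35] at e3
    have hx : α + x = 0 := (mul_eq_zero.1 (by linear_combination e3)).resolve_right n32
    have := (hi (α * f1 r2) 0 (β + y) (by
      rw [show x = -α by linear_combination hx] at e
      linear_combination (norm := module) -e)).1
    exact (mul_eq_zero.1 this).resolve_right n12
  have a25 : f2 r5 = 0 := by
    have e1 := hw1 r1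
    have e2 := hw1 r5
    rw [a51] at e1
    have : f2 r5 * f5 r2 = 0 := (mul_eq_zero.1 (by linear_combination -e1)).resolve_right n21
    rw [this, H5.two] at e2
    linear_combination -e2 / 2
  have a52 : f5 r2 = 0 := by
    have e := congrArg f5 (LinearMap.congr_fun w r2)
    rw [End.mul_apply, End.mul_apply _ s1, hw, hw, H1.ap, H1.ap r2] at e
    simp only [map_sub, map_add, map_smul, smul_eq_mul, a15, a25, a51, H2.two, H5.two] at e
    linear_combination e / 6 + f5 r2 / 3 * p12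
  have : LinearIndependent ℂ ![r1, r2, r3, r4, r5] := by
    refine Fintype.linearIndependent_iff.2 fun c e => ?_
    rw [Fin.sum_univ_five] at e
    change c 0 • r1 + c 1 • r2 + c 2 • r3 + c 3 • r4 + c 4 • r5 = 0 at e
    have e1 := congrArg f1 e
    have e2 := congrArg f2 e
    have e3 := congrArg f3 e
    have e4 := congrArg f4 e
    have e5 := congrArg f5 e
    simp only [map_add, map_smul, smul_eq_mul, map_zero, H1.two, H2.two, H3.two, H4.two, H5.two,
      a13, a31, a14, a41, a15, a51, a24, a42, a25, a52, a35, a53] at e1 e2 e3 e4 e5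
    have k2 : 3 * c 1 + 2 * f2 r3 * c 2 = 0 := by
      linear_combination 2 * e2 - f2 r1 * e1 + c 1 * p12
    have k3 : 4 * c 2 + 3 * f3 r4 * c 3 = 0 := by
      linear_combination 3 * e3 - f3 r2 * k2 + 2 * c 2 * p23
    have k4 : 5 * c 3 + 4 * f4 r5 * c 4 = 0 := by
      linear_combination 4 * e4 - f4 r3 * k3 + 3 * c 3 * p34
    have k5 : c 4 = 0 := by linear_combination (5 * e5 - f5 r4 * k4 + 4 * c 4 * p45) / 6
    have l4 : c 3 = 0 := by rw [k5] at k4; linear_combination k4 / 5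
    have l3 : c 2 = 0 := by rw [l4] at k3; linear_combination k3 / 4
    have l2 : c 1 = 0 := by rw [l3] at k2; linear_combination k2 / 3
    have l1 : c 0 = 0 := by rw [l2] at e1; linear_combination e1 / 2
    intro i
    fin_cases i
    exacts [l1, l2, l3, l4, k5]
  exact this.fintype_card_le_finrank

end Cfsg.Agent.Gr.MinD
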