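import Mathlib
import Cfsg.Agent.Gr.MinA
import Cfsg.Agent.Spor.Golay
import Cfsg.Agent.Spor.MB.Classes

/-! Representations of `M24` that look like the permutation representation on involutions. -/

set_option autoImplicit false

namespace Cfsg.Agent.Gr.MinD

open Module Cfsg.Agent.Spor Cfsg.Agent.Spor.MB

open Classical in
/-- The element of `M24` with a given code. -/
noncomputable def el (c : ℕ) : M24 := if h : toPerm c ∈ M24 then ⟨toPerm c, h⟩ else 1

def Gd (c : ℕ) : Prop := ∃ σ : M24, code σ.1 = c

theorem el_code (σ : M24) : el (code σ.1) = σ := by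
  rw [el, dif_pos (by rw [toPerm_code]; exact σ.2)]
  exact Subtype.ext (toPerm_code _)

theorem Gd.code {c : ℕ} (h : Gd c) : code (el c).1 = c := by
  obtain ⟨σ, rfl⟩ := h
  rw [el_code]

theorem Gd.of {c : ℕ} (h : inM24 c = true) : Gd c := ⟨⟨_, toPerm_mem h⟩, code_toPerm' h⟩

theorem Gd.mul {a b : ℕ} (ha : Gd a) (hb : Gd b) : Gd (mul a b) ∧ el (mul a b) = el a * el b := by
  obtain ⟨σ, rfl⟩ := ha
  obtain ⟨τ, rfl⟩ := hb
  rw [← code_mul, el_code, el_code]
  exact ⟨⟨σ * τ, rfl⟩, el_code (σ * τ)⟩

theorem el_idc : Gd idc ∧ el idc = 1 := ⟨⟨1, code_one⟩, by rw [← code_one]; exact el_code 1⟩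

/-- The number of fixed points. -/
def fx (c : ℕ) : ℕ := addN (fun i => if ap c i = i then 1 else 0) 24

theorem ptIdx_eq (p : GolayPt) : Golay.ptIdx p = ix p := by revert p; decide +kernel

theorem card_fix (g : PG) : (fixSet g).card = fx (code g) := by
  rw [fx, addN_eq_sum, ← Golay.sum_pt, Finset.card_filter]
  refine Finset.sum_congr rfl fun p _ => if_congr ?_ rfl rfl
  rw [ptIdx_eq, ap_code_ix, ix_injective.eq_iff]

/-- All products of sublists. -/
def prods : List ℕ → List ℕ
  | [] => [idc]
  | g :: l => prods l ++ (prods l).map (mul g)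

theorem Gd.prods : ∀ {l : List ℕ}, (∀ c ∈ l, Gd c) → ∀ c ∈ prods l, Gd c
  | [], _, c, hc => by rw [List.mem_singleton.1 hc]; exact el_idc.1
  | g :: l, h, c, hc => by
    have := Gd.prods (l := l) fun c hc => h c (List.mem_cons_of_mem _ hc)
    rcases List.mem_append.1 hc with e | e
    · exact this c e
    · obtain ⟨d, hd, rfl⟩ := List.mem_map.1 e
      exact ((h g List.mem_cons_self).mul (this d hd)).1

theorem length_prods : ∀ l : List ℕ, (prods l).length = 2 ^ l.length
  | [] => rfl
  | g :: l => by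
    rw [prods, List.length_append, List.length_map, length_prods l, List.length_cons]; ring

variable {U : Type*} [AddCommGroup U] [Module ℂ U] (R : M24 →* End ℂ U)

/-- The common fixed vectors. -/
def Fx (l : List ℕ) : Submodule ℂ U where
  carrier := {v | ∀ c ∈ l, R (el c) v = v}
  add_mem' ha hb c hc := by rw [map_add, ha c hc, hb c hc]
  zero_mem' _ _ := map_zero _
  smul_mem' a _ h c hc := by rw [map_smul, h c hc]

noncomputable def sm (l : List ℕ) : End ℂ U := ((prods l).map fun c => R (el c)).sum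

variable {R}

theorem sm_cons {g : ℕ} {l : List ℕ} (h : ∀ c ∈ g :: l, Gd c) :
    sm R (g :: l) = sm R l + R (el g) * sm R l := by
  rw [sm, sm, prods, List.map_append, List.sum_append, List.map_map, ← List.sum_map_mul_left]
  congr 2
  refine List.map_congr_left fun c hc => ?_
  rw [Function.comp_apply, ((h g List.mem_cons_self).mul
    (Gd.prods (fun c hc => h c (List.mem_cons_of_mem _ hc)) c hc)).2, map_mul]

theorem fix_prods : ∀ {l : List ℕ}, (∀ c ∈ l, Gd c) → Fx R l ≤ Fx R (prods l)
  | [], _, v, _, c, hc => by rw [List.mem_singleton.1 hc, el_idc.2, map_one]; rfl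
  | g :: l, h, v, hv, c, hc => by
    have h' : ∀ c ∈ l, Gd c := fun c hc => h c (List.mem_cons_of_mem _ hc)
    have := fix_prods h' (x := v) fun c hc => hv c (List.mem_cons_of_mem _ hc)
    rcases List.mem_append.1 hc with e | e
    · exact this c e
    · obtain ⟨d, hd, rfl⟩ := List.mem_map.1 e
      rw [((h g List.mem_cons_self).mul (Gd.prods h' d hd)).2, map_mul, End.mul_apply, this d hd,
        hv g List.mem_cons_self]

theorem sm_mem : ∀ {l : List ℕ}, (∀ c ∈ l, Gd c) → (∀ c ∈ l, mul c c = idc) →
    (∀ a ∈ l, ∀ b ∈ l, mul a b = mul b a) → ∀ v, sm R l v ∈ Fx R l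
  | [], _, _, _, _, _, hc => (List.not_mem_nil hc).elim
  | g :: l, h, h1, h2, v, c, hc => by
    have hg := h g List.mem_cons_self
    rw [sm_cons h, LinearMap.add_apply, End.mul_apply, map_add, ← End.mul_apply _ (R (el g)),
      ← map_mul]
    rcases List.mem_cons.1 hc with rfl | e
    · rw [← (hg.mul hg).2, h1 c hc, el_idc.2, map_one, add_comm]; rfl
    · have := sm_mem (l := l) (fun c hc => h c (List.mem_cons_of_mem _ hc))
        (fun c hc => h1 c (List.mem_cons_of_mem _ hc))
        (fun a ha b hb => h2 a (List.mem_cons_of_mem _ ha) b (List.mem_cons_of_mem _ hb)) v c e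
      rw [← ((h c hc).mul hg).2, h2 c hc g List.mem_cons_self, (hg.mul (h c hc)).2, map_mul,
        End.mul_apply, this]

/-- The test for a list of commuting involutions whose span has `k` orbits. -/
def okL (l : List ℕ) (k : ℕ) : Prop :=
  (∀ c ∈ l, inM24 c = true ∧ mul c c = idc ∧ ∀ b ∈ l, mul c b = mul b c) ∧
    (∀ c ∈ prods l, mul c c = idc) ∧ ((prods l).map fx).sum = 2 ^ l.length * k

instance (l : List ℕ) (k : ℕ) : Decidable (okL l k) := by unfold okL; infer_instance

theorem finrank_Fx [FiniteDimensional ℂ U] {t : ℤ}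
    (h : ∀ σ : M24, σ * σ = 1 → LinearMap.trace ℂ U (R σ) = (fixSet σ.1).card + t) {l : List ℕ}
    {k : ℕ} (hl : okL l k) : (finrank ℂ (Fx R l) : ℤ) = k + t := by
  have h0 : ∀ c ∈ l, Gd c := fun c hc => Gd.of (hl.1 c hc).1
  have n : (2 : ℂ) ^ l.length ≠ 0 := pow_ne_zero _ two_ne_zero
  have p : LinearMap.IsProj (Fx R l) (((2 : ℂ) ^ l.length)⁻¹ • sm R l) :=
    ⟨fun v => Submodule.smul_mem _ _
      (sm_mem h0 (fun c hc => (hl.1 c hc).2.1) (fun c hc => (hl.1 c hc).2.2) v), fun v hv => by
      have : sm R l v = ((prods l).map fun _ => v).sum := by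
        rw [sm, ← LinearMap.applyₗ_apply_apply, map_list_sum, List.map_map]
        exact congrArg List.sum (List.map_congr_left fun c hc => fix_prods h0 hv c hc)
      rw [LinearMap.smul_apply, this, List.map_const', List.sum_replicate, length_prods,
        ← Nat.cast_smul_eq_nsmul ℂ, smul_smul, Nat.cast_pow, Nat.cast_ofNat, inv_mul_cancel₀ n,
        one_smul]⟩
  have e := p.trace
  rw [map_smul, sm, map_list_sum, List.map_map, List.map_congr_left
    (g := fun c => (fx c : ℂ) + t) fun c hc => by
      have g := Gd.prods h0 c hc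
      rw [Function.comp_apply, h _ (by rw [← (g.mul g).2, hl.2.1 c hc, el_idc.2]), card_fix, g.code],
    List.sum_map_add, List.map_const', List.sum_replicate, length_prods,
    ← Function.comp_def Nat.cast fx, ← List.map_map, ← Nat.cast_list_sum, hl.2.2] at e
  have : ((finrank ℂ (Fx R l) : ℤ) : ℂ) = ((k + t : ℤ) : ℂ) := by
    rw [Int.cast_natCast, ← e]
    push_cast
    rw [smul_eq_mul, nsmul_eq_mul]
    push_cast
    field_simp
  exact_mod_cast this

theorem rank_add [FiniteDimensional ℂ U] (A : Submodule ℂ U) (f : End ℂ U) :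
    finrank ℂ (A.map f) + finrank ℂ ↥(A ⊓ LinearMap.ker f) = finrank ℂ A := by
  rw [← (f.domRestrict A).finrank_range_add_finrank_ker, LinearMap.range_domRestrict,
    LinearMap.ker_domRestrict, ← Submodule.finrank_map_subtype_eq A (Submodule.comap _ _),
    Submodule.map_comap_subtype]

theorem Fx_cons (g : ℕ) (l : List ℕ) :
    Fx R (g :: l) = Fx R l ⊓ LinearMap.ker (1 - R (el g)) := by
  ext v
  rw [Submodule.mem_inf, LinearMap.mem_ker, LinearMap.sub_apply, sub_eq_zero, End.one_apply,
    and_comm, eq_comm]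
  exact List.forall_mem_cons

def lE : List ℕ := [5447382388983081592886053788877911, 5495518024292395953547195890304087,
  5989235823820259689967313196876887, 17131322563941782780614511264466007,
  21031891374900343699909455052375127, 46999706481866609773835742131356386]
def lB : List ℕ := [21647169741103660076458455793304663, 28854523491105362182008475499005015,
  62617129159507864913675676563309282]
def lC : List ℕ := [5447382388983081592886053788877911, 17665557174438149324336018692932695,
  62617129159507864913675676563309282]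
def c1 : ℕ := 610959678574542961153154757956799665
def c2 : ℕ := 28820793223202677761424906652289079
def c3 : ℕ := 70958259501781139705369722457524960
def c4 : ℕ := 29174129899140919551332112391047223
def c5 : ℕ := 965131035967436872075251960245682210

theorem m24 [FiniteDimensional ℂ U] {t : ℤ}
    (h : ∀ σ : M24, σ * σ = 1 → LinearMap.trace ℂ U (R σ) = (fixSet σ.1).card + t) : -1 ≤ t := by
  have hE : ∀ c ∈ lE, Gd c := fun c hc => Gd.of (by revert c; decide +kernel)
  have hn : ∀ s, Gd s → (∀ c ∈ lE, ∃ d ∈ prods lE, mul c s = mul s d) →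
      ∀ v ∈ Fx R lE, R (el s) v ∈ Fx R lE := fun s hs H v hv c hc => by
    obtain ⟨d, hd, e⟩ := H c hc
    rw [← End.mul_apply, ← map_mul, ← ((hE c hc).mul hs).2, e, (hs.mul (Gd.prods hE d hd)).2,
      map_mul, End.mul_apply, fix_prods hE hv d hd]
  have g1 : Gd c1 := Gd.of (by decide +kernel)
  have g2 : Gd c2 := Gd.of (by decide +kernel)
  have g3 : Gd c3 := Gd.of (by decide +kernel)
  have g4 : Gd c4 := Gd.of (by decide +kernel)
  have g5 : Gd c5 := Gd.of (by decide +kernel)
  have n1 := hn c1 g1 (by decide +kernel)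
  have n2 := hn c2 g2 (by decide +kernel)
  have n3 := hn c3 g3 (by decide +kernel)
  have n4 := hn c4 g4 (by decide +kernel)
  have n5 := hn c5 g5 (by decide +kernel)
  let S : Submonoid M24 :=
    { carrier := {σ | ∀ v ∈ Fx R lE, R σ v ∈ Fx R lE}
      one_mem' := fun v hv => by rw [map_one]; exact hv
      mul_mem' := fun ha hb v hv => by rw [map_mul]; exact ha _ (hb v hv) }
  let φ : S →* End ℂ (Fx R lE) :=
    { toFun := fun σ => (R σ.1).restrict σ.2
      map_one' := LinearMap.ext fun v => Subtype.ext (LinearMap.congr_fun R.map_one v.1)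
      map_mul' := fun a b => LinearMap.ext fun v =>
        Subtype.ext (LinearMap.congr_fun (R.map_mul a.1 b.1) v.1) }
  have hr : ∀ σ : S, finrank ℂ (LinearMap.range (1 - φ σ)) =
      finrank ℂ ((Fx R lE).map (1 - R σ.1)) := fun σ => by
    rw [← Submodule.finrank_map_subtype_eq, ← LinearMap.range_comp, ← LinearMap.range_domRestrict]
    rfl
  have k : ∀ {a b : S}, code a.1.1 = code b.1.1 → φ a = φ b := fun e =>
    congrArg φ (Subtype.ext (Subtype.ext (code_injective e)))
  have e1 := finrank_Fx h (l := lE) (k := 6) (by decide +kernel)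
  have e2 := finrank_Fx h (l := lB) (k := 10) (by decide +kernel)
  have e3 := finrank_Fx h (l := c1 :: lB) (k := 9) (by decide +kernel)
  have e4 := finrank_Fx h (l := mul (mul c1 c3) c5 :: lC) (k := 3) (by decide +kernel)
  have hB : Fx R lE ≤ Fx R lB := fun v hv c hc =>
    fix_prods hE hv c (by revert c; decide +kernel)
  have hC : Fx R lE ≤ Fx R lC := fun v hv c hc =>
    fix_prods hE hv c (by revert c; decide +kernel)
  have := cox (s1 := φ ⟨_, n1⟩) (s2 := φ ⟨_, n2⟩) (s3 := φ ⟨_, n3⟩) (s4 := φ ⟨_, n4⟩)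
    (s5 := φ ⟨_, n5⟩) ?_ ?_ ?_ ?_ ?_ ?_ ?_ ?_ ?_ ?_ ?_ ?_ ?_ ?_ ?_ ?_ ?_
  · omega
  iterate 15
    · simp only [← map_mul, ← map_one φ]
      apply k
      simp only [Submonoid.coe_mul, Subgroup.coe_mul, code_mul, OneMemClass.coe_one, code_one,
        g1.code, g2.code, g3.code, g4.code, g5.code]
      decide +kernel
  · have a := rank_add (Fx R lB) (1 - R (el c1))
    have b := Submodule.finrank_mono (Submodule.map_mono (f := 1 - R (el c1)) hB)
    rw [← Fx_cons] at a
    rw [hr]
    change finrank ℂ ((Fx R lE).map (1 - R (el c1))) ≤ 1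
    omega
  · have a := rank_add (Fx R lE) (1 - R (el (mul (mul c1 c3) c5)))
    have b := Submodule.finrank_mono
      (inf_le_inf_right (LinearMap.ker (1 - R (el (mul (mul c1 c3) c5)))) hC)
    rw [← Fx_cons _ lC] at b
    rw [← map_mul, ← map_mul, hr, show ((⟨_, n1⟩ * ⟨_, n3⟩ * ⟨_, n5⟩ : S) : M24) = _ from
      (((g1.mul g3).1.mul g5).2.trans (congrArg (· * el c5) (g1.mul g3).2)).symm]
    omega

end Cfsg.Agent.Gr.MinD
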