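import Mathlib
import Cfsg.Agent.Gr.MinB
import Cfsg.Agent.Gr.MinC
import Cfsg.Agent.Gr.Fix1

/-! Comparison of two small representations of `K`. -/

set_option autoImplicit false

namespace Cfsg.Agent.Gr.MinD

open Finset Matrix Module Cfsg.Agent.Spor Cfsg.Agent.Spor.Leech

open scoped commutatorElement

attribute [local irreducible] Ev Oct ShS

theorem eq_one_of_simple {A B M : Type*} [Group A] [Group B] [CommGroup M] [IsSimpleGroup B]
    [Finite B] (hB : ¬ (Nat.card B).Prime) (φ : A →* B) (hφ : Function.Surjective φ) (μ : A →* M)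
    (h : φ.ker ≤ μ.ker) (a : A) : μ a = 1 := by
  rcases (Subgroup.Normal.map inferInstance φ hφ : (μ.ker.map φ).Normal).eq_bot_or_eq_top with e | e
  · refine (hB ?_).elim
    let : CommGroup B := { ‹Group B› with
      mul_comm := fun x y => by
        obtain ⟨x, rfl⟩ := hφ x
        obtain ⟨y, rfl⟩ := hφ y
        have : φ ⁅x, y⁆ ∈ μ.ker.map φ := Subgroup.mem_map_of_mem _ (by
          rw [MonoidHom.mem_ker, map_commutatorElement, commutatorElement_eq_one_iff_mul_comm,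
            mul_comm])
        rwa [e, Subgroup.mem_bot, map_commutatorElement, commutatorElement_eq_one_iff_mul_comm]
          at this }
    exact IsSimpleGroup.prime_card
  · have : a ∈ (μ.ker.map φ).comap φ := by rw [e]; trivial
    rwa [Subgroup.comap_map_eq, sup_eq_left.2 h] at this

variable {U : Type*} [AddCommGroup U] [Module ℂ U] [FiniteDimensional ℂ U] {ρ : K →* End ℂ U}
  {U' : Type*} [AddCommGroup U'] [Module ℂ U'] [FiniteDimensional ℂ U'] {ρ' : K →* End ℂ U'}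

theorem rank_one {p T : End ℂ U} (hp : p * p = p) (h1 : finrank ℂ (LinearMap.range p) = 1)
    (h : T * p = p * T) : T * p = LinearMap.trace ℂ U (T * p) • p := by
  obtain ⟨w, hw, e⟩ := finrank_eq_one_iff'.1 h1
  obtain ⟨a, ha⟩ := e ⟨T w, by
    obtain ⟨v, hv⟩ := w.2
    exact ⟨T v, by rw [← hv, ← End.mul_apply, ← h]; rfl⟩⟩
  have : T * p = a • p := LinearMap.ext fun v => by
    obtain ⟨b, hb⟩ := e ⟨p v, v, rfl⟩
    have h2 : b • (w : U) = p v := congrArg Subtype.val hb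
    have h3 : a • (w : U) = T w := congrArg Subtype.val ha
    rw [End.mul_apply, LinearMap.smul_apply, ← h2, map_smul, ← h3, smul_comm]
  rw [this, map_smul, trace_idem hp, h1, Nat.cast_one, smul_eq_mul, mul_one]

variable (ρ) in
/-- The trace on the eigenspace of the character `c`. -/
noncomputable def tP (c : LL) (g : K) : ℂ := LinearMap.trace ℂ U (ρ g * P ρ c)

omit [FiniteDimensional ℂ U] in
theorem tP_of_ne {γ : Ct} {c : LL} (h : csm γ.1.2 c ≠ c) : tP ρ c (act γ) = 0 := by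
  have : P ρ c = P ρ c * P ρ c := by rw [P_mul_P, if_pos rfl]
  rw [tP, this, ← mul_assoc, act_mul_P, LinearMap.trace_mul_comm, ← mul_assoc, P_mul_P,
    if_neg h.symm, zero_mul, map_zero]

omit [FiniteDimensional ℂ U] in
theorem tP_mul_tq (c : LL) (g : K) (e : ZMod 2) (b : LL) :
    tP ρ c (g * tq e b) = sc (pol c b) * tP ρ c g := by
  rw [tP, ρ.map_mul, mul_assoc, tq_mul_P, mul_smul_comm, map_smul, smul_eq_mul, tP]

theorem tP_one (c : LL) : tP ρ c 1 = mm ρ c := by rw [tP, map_one, one_mul, trace_P]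

theorem tP_mul {c : LL} (h : mm ρ c = 1) {γ : Ct} (hγ : csm γ.1.2 c = c) (g : K) :
    tP ρ c (g * act γ) = tP ρ c g * tP ρ c (act γ) := by
  rw [tP, ρ.map_mul, mul_assoc, rank_one (by rw [P_mul_P, if_pos rfl]) h (by rw [act_mul_P, hγ]),
    mul_smul_comm, map_smul, smul_eq_mul, mul_comm, tP, tP]

theorem tP_short {c : LL} (hc : c ∈ ShS) (h : mm ρ c = 1) (h' : mm ρ' c = 1) (γ : Ct) :
    tP ρ c (act γ) = tP ρ' c (act γ) := by
  by_cases hγ : csm γ.1.2 c = c
  swap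
  · rw [tP_of_ne hγ, tP_of_ne hγ]
  obtain ⟨v, hv, rfl⟩ := mem_ShS.1 hc
  let π : Ct →* Co0 := (MonoidHom.snd _ _).comp Ct.subtype
  let A := (MulAction.stabilizer Co0 v).comap π
  have hA : ∀ a : A, csm a.1.1.2 (cls v) = cls v := fun a => by
    rw [csm_cls]; exact congrArg cls a.2
  let l : A →* ℂ := ⟨⟨fun a => tP ρ (cls v) (act a.1), by
    rw [OneMemClass.coe_one, map_one, tP_one, h, Nat.cast_one]⟩, fun a b =>
      (congrArg _ (act.map_mul a.1 b.1)).trans (tP_mul h (hA b) _)⟩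
  let l' : A →* ℂ := ⟨⟨fun a => tP ρ' (cls v) (act a.1), by
    rw [OneMemClass.coe_one, map_one, tP_one, h', Nat.cast_one]⟩, fun a b =>
      (congrArg _ (act.map_mul a.1 b.1)).trans (tP_mul h' (hA b) _)⟩
  have := simple_stab32 hv
  have H : ∀ a : A, l a = l' a := fun a => congrArg Units.val (div_eq_one.1 (eq_one_of_simple
    (by rw [card_stab32 hv]; norm_num) (π.subgroupComap _) (fun x => by
      obtain ⟨δ, hδ⟩ := exists_lift x.1
      exact ⟨⟨δ, show δ.1.2 ∈ _ from hδ ▸ x.2⟩, Subtype.ext hδ⟩) (l.toHomUnits / l'.toHomUnits)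
    (fun x hx => div_eq_one.2 (Units.ext (by
      obtain ⟨e, b, hb⟩ := act_mem_QK.2 (Or.inl (show x.1.1.2 = 1 from congrArg Subtype.val hx))
      change tP ρ _ (act x.1) = tP ρ' _ (act x.1)
      rw [hb, ← one_mul (tq e b), tP_mul_tq, tP_mul_tq, tP_one, tP_one, h, h']))) a))
  rw [csm_cls, cls_eq_iff_short (by rw [nm_smul, hv]) hv] at hγ
  rcases hγ with e | e
  · exact H ⟨γ, e⟩
  · have := H ⟨γ * ActH.gn, show (γ.1.2 * negOne) • v = v by
      rw [mul_smul, negOne_smul, smul_neg, e, neg_neg]⟩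
    change tP ρ _ (act (γ * ActH.gn)) = tP ρ' _ (act (γ * ActH.gn)) at this
    rwa [map_mul, ActH.act_gn, zz, tP_mul_tq, tP_mul_tq, pol_zero_right, sc_zero, one_mul,
      one_mul] at this

variable (ρ) in
/-- Small and faithful. -/
structure Sm : Prop where
  lt : finrank ℂ U < 393168
  ne : ρ zz ≠ 1

theorem tP_eq (h : Sm ρ) (h' : Sm ρ') {c : LL} (h0 : c ≠ 0) (γ : Ct) :
    tP ρ c (act γ) = tP ρ' c (act γ) := by
  by_cases hc : c ∈ ShS
  · exact tP_short hc ((mm_one h.lt h.ne).1 c hc) ((mm_one h'.lt h'.ne).1 c hc) γ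
  · rw [tP, tP, LinearMap.range_eq_bot.1 (Submodule.finrank_eq_zero.1 (mm_zero h.lt h0 hc)),
      LinearMap.range_eq_bot.1 (Submodule.finrank_eq_zero.1 (mm_zero h'.lt h0 hc)), mul_zero,
      mul_zero, map_zero, map_zero]

variable (ρ) in
/-- Four times the trace on the fixed space of the four-group. -/
noncomputable def t4 (g : K) : ℂ := LinearMap.trace ℂ U (ρ g) + LinearMap.trace ℂ U (ρ (g * zz)) +
  (LinearMap.trace ℂ U (ρ (g * tq 0 (om, 0))) + LinearMap.trace ℂ U (ρ (g * tq 1 (om, 0))))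

omit [FiniteDimensional ℂ U] in
theorem t4_tau (g : K) : t4 ρ (tau * g * tau⁻¹) = t4 ρ g := by
  have k : ∀ x, LinearMap.trace ℂ U (ρ (tau * g * tau⁻¹ * (tau * x * tau⁻¹))) =
      LinearMap.trace ℂ U (ρ (g * x)) := fun x => by
    rw [← trace_conj ρ (g * x) tau]; congr 2; group
  rw [t4, t4, trace_conj, ← k zz, ← k (tq 0 _), ← k (tq 1 _), tau_conj_zz, tau_conj_zero,
    tau_conj_one]
  ring

omit [FiniteDimensional ℂ U] in
theorem sum_tP (y : LL) (g : K) : 2 * ∑ c, sc (pol c y) * tP ρ c g =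
    LinearMap.trace ℂ U (ρ (g * tq 0 y)) + LinearMap.trace ℂ U (ρ (g * tq 1 y)) := by
  have := trace_eq_sum (mul_eq_sum (sum_P ρ y).symm (ρ g))
  rw [sum_congr rfl (g := fun c => sc (pol c y) * tP ρ c g) fun c _ => by
    rw [mul_smul_comm, map_smul, smul_eq_mul, tP], mul_smul_comm, map_smul, mul_add, map_add,
    ← map_mul, ← map_mul, smul_eq_mul] at this
  rw [← this, mul_inv_cancel_left₀ two_ne_zero]

variable (ρ ρ') in
/-- The difference of the traces on the fixed spaces of `QK`. -/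
noncomputable def df (g : K) : ℂ := tP ρ 0 g - tP ρ' 0 g

theorem t4_sub (h : Sm ρ) (h' : Sm ρ') (γ : Ct) :
    t4 ρ (act γ) - t4 ρ' (act γ) = 4 * df ρ ρ' (act γ) := by
  have k : ∀ y, ∑ c, sc (pol c y) * tP ρ c (act γ) - ∑ c, sc (pol c y) * tP ρ' c (act γ) =
      df ρ ρ' (act γ) := fun y => by
    rw [← sum_sub_distrib, sum_eq_single_of_mem 0 (mem_univ _) fun c _ hc => by
      rw [tP_eq h h' hc, sub_self], pol_zero_left, sc_zero, one_mul, one_mul, df]
  have a := sum_tP (ρ := ρ) 0 (act γ)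
  have b := sum_tP (ρ := ρ') 0 (act γ)
  rw [tq_zero, mul_one] at a b
  rw [t4, t4, ← sum_tP, ← sum_tP, zz, ← a, ← b]
  linear_combination 2 * k 0 + 2 * k (om, 0)

theorem df_tau (h : Sm ρ) (h' : Sm ρ') {γ δ : Ct} (e : tau * act γ * tau⁻¹ = act δ) :
    df ρ ρ' (act δ) = df ρ ρ' (act γ) := by
  have a := t4_sub h h' γ
  have b := t4_sub h h' δ
  rw [← e, t4_tau, t4_tau, a, e] at b
  linear_combination -b / 4

omit [FiniteDimensional ℂ U] [FiniteDimensional ℂ U'] in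
theorem df_mul_Q (g : K) {q : K} (hq : q ∈ QK) : df ρ ρ' (g * q) = df ρ ρ' g := by
  obtain ⟨e, b, rfl⟩ := hq
  rw [df, tP_mul_tq, tP_mul_tq, pol_zero_left, sc_zero, one_mul, one_mul, df]

omit [FiniteDimensional ℂ U] in
theorem tP_conj (γ : Ct) (g : K) : tP ρ 0 (act γ * g * (act γ)⁻¹) = tP ρ 0 g := by
  have := act_mul_P ρ γ⁻¹ 0
  rw [csm_zero, map_inv] at this
  rw [tP, ρ.map_mul, ρ.map_mul, mul_assoc, this, LinearMap.trace_mul_comm, mul_assoc, ← mul_assoc (ρ _),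
    ← map_mul, inv_mul_cancel, map_one, one_mul, LinearMap.trace_mul_comm, tP]

variable (ρ ρ') in
/-- The difference as a function on `Co0`. -/
noncomputable def dF (h : Co0) : ℂ := df ρ ρ' (act (exists_lift h).choose)

omit [FiniteDimensional ℂ U] [FiniteDimensional ℂ U'] in
theorem df_act {γ : Ct} {h : Co0} (e : γ.1.2 = h ∨ γ.1.2 = negOne * h) :
    df ρ ρ' (act γ) = dF ρ ρ' h := by
  have k := (exists_lift h).choose_spec
  rw [dF]
  generalize (exists_lift h).choose = δ at k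
  rw [← mul_inv_cancel_left δ γ, map_mul, df_mul_Q]
  refine act_mem_QK.2 (e.imp (fun e => ?_) fun e => ?_) <;>
    change δ.1.2⁻¹ * γ.1.2 = _ <;> rw [k, e]
  · exact inv_mul_cancel h
  · rw [← negOne_comm, inv_mul_cancel_left]

omit [FiniteDimensional ℂ U] [FiniteDimensional ℂ U'] in
theorem dF_conj (k h : Co0) : dF ρ ρ' (k * h * k⁻¹) = dF ρ ρ' h := by
  obtain ⟨γ, rfl⟩ := exists_lift k
  obtain ⟨δ, rfl⟩ := exists_lift h
  rw [← df_act (γ := γ * δ * γ⁻¹) (h := γ.1.2 * δ.1.2 * γ.1.2⁻¹) (Or.inl rfl), ← df_act (Or.inl rfl), map_mul, map_mul, map_inv,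
    df, tP_conj, tP_conj, df]

theorem exists_tau_sgn {a : Co0} (ha : a ∈ MT.Sgn) :
    ∃ q ∈ QK, ∃ γ : Ct, act γ = tau * q * tau⁻¹ ∧ (γ.1.2 = a ∨ γ.1.2 = negOne * a) := by
  have := (mdata.img_eq (mdata.pair tau_zz_mem tau_zz_ne) (p := none) (by
    rw [tau_conj_zz, cls_e8]; exact CL.eqv_tq.2 rfl)).1
  obtain ⟨x, ⟨q, hq, e⟩, hx⟩ := this.ge (Subgroup.mem_map_of_mem _ ha)
  obtain ⟨γ, hγ⟩ := CL.exists_act x
  obtain rfl : ⟨act γ, act_mem_centralizer γ⟩ = x := Subtype.ext hγ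
  rw [piK_act] at hx
  exact ⟨q, hq, γ, e.symm, MT.pr_eq_iff.1 hx⟩

theorem dF_mul_sgn (h : Sm ρ) (h' : Sm ρ') {m a : Co0} (hm : m ∈ Mon) (ha : a ∈ MT.Sgn) :
    dF ρ ρ' (m * a) = dF ρ ρ' m := by
  obtain ⟨q, hq, δ, e1, e2⟩ := exists_tau_sgn ha
  obtain ⟨γ, rfl, e3⟩ := exists_lift_one m (a := (om, 0))
    (fun e => om_ne_zero (congrArg Prod.fst e)) 0
  have e4 : act γ * tq 1 (om, 0) = tq 1 (om, 0) * act γ := FixH.act_comm (by
    rw [← cls_e8 none, csm_cls, cls_eq_iff]; exact MT.cg_of_mem_Mon hm none) e3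
  obtain ⟨γ', e5⟩ := exists_act_of_comm (g := tau⁻¹ * act γ * tau) (by
    rw [← tau_conj_zz] at e4
    calc _ = tau⁻¹ * (tau * zz * tau⁻¹ * act γ) * tau := by group
      _ = _ := by rw [← e4]; group)
  obtain ⟨e, b, rfl⟩ := hq
  rw [← df_act (γ := γ * δ) (e2.imp (fun k => by rw [ActH.Ct_mul_snd, k]) fun k => by
      rw [ActH.Ct_mul_snd, k, ← mul_assoc, negOne_comm, mul_assoc]), ← df_act (Or.inl rfl),
    df_tau h h' (γ := γ' * ActH.gq e b) (δ := γ * δ) (by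
      rw [map_mul, map_mul, e5, e1, tq]; group),
    df_tau h h' (γ := γ') (δ := γ) (by rw [e5]; group), map_mul,
    df_mul_Q _ (q := act (ActH.gq e b)) ⟨e, b, rfl⟩]

theorem xi_conj {a b s : ℕ} (ha : MB.isCode a = true) (hb : MB.isCode b = true)
    (hs : MB.inM24 s = true) (H : ∀ i < 24, ∀ j < 24,
      (if a.testBit j then -xiMat (MB.ap s i) j else xiMat (MB.ap s i) j) =
        if b.testBit (MB.ap s i) then -xiMat i j else xiMat i j) :
    ∃ x ∈ MT.Sgn, ∃ y ∈ MT.Sgn, xi * x * xi⁻¹ = y * perm (el s) := by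
  have k : ∀ {m : ℕ}, MB.isCode m = true → IsCode (MB.unmask m) := fun h =>
    MB.unmask_mem_CW h
  refine ⟨_, ⟨_, k ha, rfl⟩, _, ⟨_, k hb, rfl⟩, mul_inv_eq_iff_eq_mul.2 (co0_ext_e8 fun j => ?_)⟩
  ext i
  obtain ⟨i, rfl⟩ := (el s).1.surjective i
  have e : MB.ix ((el s).1 i) = MB.ap s (MB.ix i) := by rw [← MB.ap_code_ix, (Gd.of hs).code]
  have := H _ (MB.ix_lt i) _ (MB.ix_lt j)
  rw [mul_smul, mul_smul, mul_smul, Leech.sign_apply, perm_apply', xi_e8, sign_e8, ptIdx_eq, ptIdx_eq,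
    if_congr MB.mem_unmask rfl rfl, if_congr MB.mem_unmask rfl rfl, e, ← this]
  split_ifs
  · rw [smul_neg, AddSubgroup.coe_neg, Pi.neg_apply, xi_e8, ptIdx_eq, ptIdx_eq, e]
  · rw [xi_e8, ptIdx_eq, ptIdx_eq, e]

theorem dF_perm (h : Sm ρ) (h' : Sm ρ') {σ : M24} (hσ : σ * σ = 1) :
    dF ρ ρ' (perm σ) = dF ρ ρ' 1 := by
  have k : ∀ {s : ℕ}, (∃ x ∈ MT.Sgn, ∃ y ∈ MT.Sgn, xi * x * xi⁻¹ = y * perm (el s)) →
      dF ρ ρ' (perm (el s)) = dF ρ ρ' 1 := by
    rintro s ⟨x, hx, y, hy, e⟩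
    rw [← dF_mul_sgn h h' (perm_mem_Mon _) hy, ← dF_conj y, ← mul_assoc, mul_inv_cancel_right, ← e,
      dF_conj, ← one_mul x, dF_mul_sgn h h' (one_mem _) hx]
  have k2 : ∀ {s : ℕ}, MB.inM24 s = true → MB.pw s 2 = MB.idc → s ≠ MB.idc →
      orderOf (el s).1 = 2 := fun a b c =>
    MB.orderOf_of_code (by rw [(Gd.of a).code, b]) (by rwa [(Gd.of a).code])
  have k3 : ∀ {a : M24} {z : MB.PG}, (∃ k ∈ M24, k * z * k⁻¹ = a.1) → (∃ k ∈ M24, k * z * k⁻¹ = σ.1) →
      dF ρ ρ' (perm σ) = dF ρ ρ' (perm a) := by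
    rintro a z ⟨x, hx, e⟩ ⟨y, hy, e'⟩
    have : σ = ⟨y, hy⟩ * ⟨x, hx⟩⁻¹ * a * (⟨y, hy⟩ * ⟨x, hx⟩⁻¹)⁻¹ := Subtype.ext (by
      change σ.1 = y * x⁻¹ * a.1 * (y * x⁻¹)⁻¹
      rw [← e, ← e']; group)
    rw [this, map_mul, map_mul _ _ a, map_inv, dF_conj]
  by_cases h1 : σ = 1
  · rw [h1, map_one]
  have ho : orderOf σ.1 = 2 := orderOf_eq_prime (by rw [pow_two]; exact congrArg Subtype.val hσ)
    fun e => h1 (Subtype.ext e)
  rcases MB.involution_classes σ.2 ho with e | e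
  · have g : MB.inM24 976934804572108675034832543981668384 = true := by decide +kernel
    rw [k3 (MB.conj_zA_of_card (el _).2 (k2 g (by decide +kernel) (by decide +kernel)) (by
      rw [card_fix, (Gd.of g).code]; decide +kernel)) e]
    exact k (xi_conj (a := 42232) (b := 8077824) (by decide +kernel) (by decide +kernel) g
      (by decide +kernel))
  · have g : MB.inM24 21553437447306391113730797094863959 = true := by decide +kernel
    rw [k3 (MB.conj_zB_of_card (el _).2 (k2 g (by decide +kernel) (by decide +kernel)) (by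
      rw [card_fix, (Gd.of g).code]; decide +kernel)) e]
    exact k (xi_conj (a := 178910) (b := 16598305) (by decide +kernel) (by decide +kernel) g
      (by decide +kernel))

end Cfsg.Agent.Gr.MinD
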