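import Mathlib
import Cfsg.Agent.Gr.MinD
import Cfsg.Agent.Gr.Fix

/-! The minimal degree of a faithful complex representation of `K`. -/

set_option autoImplicit false

namespace Cfsg.Agent.Gr.MinD

open Finset Matrix Module Cfsg.Agent.Spor Cfsg.Agent.Spor.Leech TensorProduct

attribute [local irreducible] Ev Oct ShS

variable {U : Type*} [AddCommGroup U] [Module ℂ U] (ρ : K →* End ℂ U)

/-- A lift of an element of `Co0`. -/
noncomputable def lf (h : Co0) : Ct := (exists_lift h).choose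
theorem lf_snd (h : Co0) : (lf h).1.2 = h := (exists_lift h).choose_spec

/-- The action of `Co0` on the fixed space of `QK`. -/
noncomputable def T (h : Co0) : End ℂ U := ρ (act (lf h)) * P ρ 0

theorem T_mul (h k : Co0) : T ρ (h * k) = T ρ h * T ρ k := by
  have e1 := act_mul_P ρ (lf k) 0
  rw [csm_zero] at e1
  obtain ⟨e, b, hb⟩ := act_mem_QK.2 (Or.inl (show ((lf h * lf k)⁻¹ * lf (h * k)).1.2 = 1 from by
    change ((lf h).1.2 * (lf k).1.2)⁻¹ * (lf (h * k)).1.2 = 1
    rw [lf_snd, lf_snd, lf_snd, inv_mul_cancel]))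
  rw [T, T, T, mul_assoc, ← mul_assoc (P ρ 0), ← e1, mul_assoc, P_mul_P, if_pos rfl, ← mul_assoc,
    ← ρ.map_mul, ← act.map_mul, ← mul_inv_cancel_left (lf h * lf k) (lf (h * k)), act.map_mul, hb,
    ρ.map_mul, mul_assoc, tq_mul_P, pol_zero_left, sc_zero, one_smul]

noncomputable instance : Fintype MT.Sgn := Fintype.ofFinite _

/-- The projection to the fixed space of the sign changes. -/
noncomputable def PD : End ℂ U := ∑ a : MT.Sgn, (4096 : ℂ)⁻¹ • T ρ a

theorem T_mul_PD {a : Co0} (ha : a ∈ MT.Sgn) : T ρ a * PD ρ = PD ρ := by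
  rw [PD, mul_sum, ← Equiv.sum_comp (Equiv.mulLeft (⟨a, ha⟩ : MT.Sgn))
    fun a : MT.Sgn => (4096 : ℂ)⁻¹ • T ρ a]
  exact sum_congr rfl fun b _ => by rw [mul_smul_comm, ← T_mul]; rfl

theorem card_Sgn' : (univ : Finset MT.Sgn).card = 4096 := by
  rw [card_univ, ← Nat.card_eq_fintype_card, MT.card_Sgn]

theorem PD_mul_PD : PD ρ * PD ρ = PD ρ := by
  nth_rewrite 1 [PD]
  rw [sum_mul, sum_congr rfl fun a _ => by rw [smul_mul_assoc, T_mul_PD ρ a.2], sum_const,
    card_Sgn', ← Nat.cast_smul_eq_nsmul ℂ, smul_smul]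
  norm_num

theorem T_comm_PD {m : Co0} (hm : m ∈ Mon) : T ρ m * PD ρ = PD ρ * T ρ m := by
  rw [PD, mul_sum, sum_mul]
  refine Fintype.sum_bijective (fun a : MT.Sgn => (⟨m * a * m⁻¹, MT.conj_mem_Sgn hm a.2⟩ : MT.Sgn))
    (Finite.injective_iff_bijective.1 fun a b e => Subtype.ext
      (mul_left_cancel (mul_right_cancel (congrArg Subtype.val e)))) _ _ fun a => ?_
  rw [mul_smul_comm, smul_mul_assoc, ← T_mul, ← T_mul, inv_mul_cancel_right]

theorem T_mem (σ : M24) : ∀ v ∈ LinearMap.range (PD ρ), T ρ (perm σ) v ∈ LinearMap.range (PD ρ) := by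
  rintro _ ⟨v, rfl⟩
  exact ⟨T ρ (perm σ) v, by rw [← End.mul_apply, ← T_comm_PD ρ (perm_mem_Mon σ)]; rfl⟩

/-- The action of `M24` on the fixed space of the sign changes. -/
noncomputable def RM : M24 →* End ℂ (LinearMap.range (PD ρ)) where
  toFun σ := (T ρ (perm σ)).restrict (T_mem ρ σ)
  map_one' := LinearMap.ext fun ⟨_, v, rfl⟩ => Subtype.ext (by
    rw [LinearMap.coe_restrict_apply, map_one, ← End.mul_apply, T_mul_PD ρ (one_mem _)]; rfl)
  map_mul' σ τ := LinearMap.ext fun v => Subtype.ext (by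
    rw [LinearMap.coe_restrict_apply, map_mul, T_mul]; rfl)

theorem trace_RM [FiniteDimensional ℂ U] (σ : M24) :
    LinearMap.trace ℂ _ (RM ρ σ) = LinearMap.trace ℂ U (T ρ (perm σ) * PD ρ) := by
  rw [← LinearMap.trace_restrict_eq_of_forall_mem _ (T ρ (perm σ) * PD ρ)
    fun v => T_mem ρ σ _ ⟨v, rfl⟩]
  refine congrArg _ (LinearMap.ext fun ⟨_, v, rfl⟩ => Subtype.ext ?_)
  change T ρ (perm σ) (PD ρ v) = T ρ (perm σ) ((PD ρ * PD ρ) v)
  rw [PD_mul_PD]

theorem trace_T_PD (h : Co0) : LinearMap.trace ℂ U (T ρ h * PD ρ) =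
    ∑ a : MT.Sgn, (4096 : ℂ)⁻¹ * tP ρ 0 (act (lf (h * a))) := by
  rw [PD, mul_sum, map_sum]
  exact sum_congr rfl fun a _ => by rw [mul_smul_comm, map_smul, ← T_mul]; rfl

/-! ### The Griess algebra -/

noncomputable def rK : K →* End ℝ V :=
  { toFun := fun g => (g.1 : V →ₗ[ℝ] V), map_one' := rfl, map_mul' := fun _ _ => rfl }

noncomputable def bc : End ℝ V →ₐ[ℝ] End ℂ (ℂ ⊗[ℝ] V) := End.baseChangeHom ℝ ℂ V

theorem trace_bc (f : End ℝ V) : LinearMap.trace ℂ _ (bc f) = (LinearMap.trace ℝ V f : ℝ) :=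
  LinearMap.trace_baseChange f ℂ

noncomputable def rG : K →* End ℂ (ℂ ⊗[ℝ] V) := bc.toMonoidHom.comp rK

theorem finrank_G : finrank ℂ (ℂ ⊗[ℝ] V) = 196884 := by rw [finrank_baseChange, finrank_V]

theorem sm_rG : Sm rG := by
  refine ⟨by rw [finrank_G]; norm_num, fun h => ?_⟩
  have := simple_K
  rcases rG.toHomUnits.normal_ker.eq_bot_or_eq_top with e | e
  · exact zz_ne_one (Subgroup.mem_bot.1 (e ▸ (Units.ext h : rG.toHomUnits zz = 1)))
  · have h1 : rG t0 = 1 := congrArg Units.val (show rG.toHomUnits t0 = 1 from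
      (e ▸ Subgroup.mem_top t0 : t0 ∈ rG.toHomUnits.ker))
    have h2 := trace_bc (rK t0)
    rw [show bc (rK t0) = 1 from h1, LinearMap.trace_one, finrank_G,
      show LinearMap.trace ℝ V (rK t0) = 4372 from trace_DD t0_mem] at h2
    norm_num at h2

noncomputable def pS : End ℝ V := LinearMap.inl ℝ _ _ ∘ₗ LinearMap.fst ℝ _ _

theorem P_rG : P rG 0 = bc pS := by
  have h1 : ∀ e b, rG (tq e b) * bc pS = bc pS := fun e b =>
    (bc.map_mul _ _).symm.trans (congrArg bc (LinearMap.ext fun v => by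
      change (tq e b).1 (v.1, 0, 0) = (v.1, 0, 0)
      rw [CL.app_S (FixH.zz_comm e b), QK_S ⟨e, b, rfl⟩]))
  have h2 : ∀ e b, bc pS * rG (tq e b) = bc pS := fun e b =>
    (bc.map_mul _ _).symm.trans (congrArg bc (LinearMap.ext fun v => by
      change (((tq e b).1 v).1, 0, 0) = (v.1, 0, 0)
      rw [QK_S ⟨e, b, rfl⟩]))
  have k : ∑ _p : ZMod 2 × LL, ((2 : ℂ) ^ 25)⁻¹ = 1 := by
    rw [sum_const, card_univ, Fintype.card_prod, ZMod.card, card_LL]; norm_num
  have h3 : P rG 0 * bc pS = bc pS := by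
    rw [mul_eq_sum' (P_eq rG 0), sum_congr rfl (g := fun _ => ((2 : ℂ) ^ 25)⁻¹ • bc pS) fun p _ => by
      rw [smul_mul_assoc, h1, pol_zero_left, sc_zero, mul_one], ← sum_smul, k, one_smul]
  have h4 : bc pS * P rG 0 = bc pS := by
    rw [mul_eq_sum (P_eq rG 0), sum_congr rfl (g := fun _ => ((2 : ℂ) ^ 25)⁻¹ • bc pS) fun p _ => by
      rw [mul_smul_comm, h2, pol_zero_left, sc_zero, mul_one], ← sum_smul, k, one_smul]
  have h5 := trace_idem (p := P rG 0 - bc pS) (by
    rw [sub_mul, mul_sub, mul_sub, P_mul_P, if_pos rfl, h3, h4, ← map_mul,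
      show pS * pS = pS from rfl, sub_self, sub_zero])
  have h6 := (mm_one sm_rG.lt sm_rG.ne).2
  rw [finrank_G] at h6
  rw [map_sub, trace_P, trace_bc, show LinearMap.trace ℝ V pS = 300 by
    rw [pS, LinearMap.trace_comp_comm', LinearMap.fst_comp_inl, LinearMap.trace_id, finrank_symM]
    norm_num, show mm rG 0 = 300 by omega] at h5
  exact sub_eq_zero.1 (LinearMap.range_eq_bot.1 (Submodule.finrank_eq_zero.1
    (Nat.cast_eq_zero.1 (h5.symm.trans (by norm_num)))))

noncomputable def dI : (Pt → ℝ) →ₗ[ℝ] V where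
  toFun x := (⟨diagonal x, isSymm_diagonal x⟩, 0, 0)
  map_add' x y := Prod.ext (Subtype.ext (diagonal_add x y).symm) (add_zero _).symm
  map_smul' a x := Prod.ext (Subtype.ext (diagonal_smul a x)) (smul_zero _).symm

noncomputable def dP : V →ₗ[ℝ] (Pt → ℝ) where
  toFun v := v.1.1.diag
  map_add' _ _ := rfl
  map_smul' _ _ := rfl

theorem mat_Sgn {a : Co0} (ha : a ∈ MT.Sgn) : mat a = diagonal (mat a).diag := by
  obtain ⟨c, hc, rfl⟩ := ha
  rw [mat_sign, diag_diagonal]

theorem sum_mat (i j : Pt) : ∑ a : MT.Sgn, mat a i i * mat a j j = if i = j then 4096 else 0 := by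
  split_ifs with h
  · rw [← h, sum_congr rfl (g := fun _ => 1) fun a _ => by
      have := congrFun (congrFun (mat_mul a.1 a.1) i) i
      rw [MT.mul_self_Sgn a.2, mat_one, mat_Sgn a.2, diagonal_mul_diagonal, diagonal_apply_eq,
        one_apply_eq] at this
      exact this.symm, sum_const, card_Sgn']
    norm_num
  · obtain ⟨o, ho, -, h1, h2⟩ := exists_octad_sup_disj (a := {i}) (b := {j})
      (disjoint_singleton.2 h) (by simp)
    have := Equiv.sum_comp (Equiv.mulLeft (⟨sign o ho, o, ho, rfl⟩ : MT.Sgn))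
      fun a : MT.Sgn => mat a i i * mat a j j
    rw [sum_congr rfl (g := fun a : MT.Sgn => -(mat a i i * mat a j j)) fun a _ => by
      change mat (sign o ho * a) i i * mat (sign o ho * a) j j = _
      rw [mat_mul, mat_sign, diagonal_mul, diagonal_mul, if_pos (singleton_subset_iff.1 h1),
        if_neg (disjoint_singleton_right.1 h2)]
      ring, sum_neg_distrib] at this
    linarith

theorem act_pS (γ : Ct) (v : V) : (rK (act γ) * pS) v = (((act γ).1 v).1, 0, 0) := by
  change (act γ).1 (v.1, 0, 0) = _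
  rw [CL.app_S (zz_comm_act γ)]
  exact Prod.ext (Subtype.ext (by rw [act_S, act_S])) rfl

theorem PD_rG : PD rG = bc (dI ∘ₗ dP) := by
  have : dI ∘ₗ dP = ∑ a : MT.Sgn, (4096 : ℝ)⁻¹ • (rK (act (lf a)) * pS) := LinearMap.ext fun v => by
    rw [LinearMap.sum_apply, sum_congr rfl fun a _ => by rw [LinearMap.smul_apply, act_pS],
      ← smul_sum]
    refine Prod.ext (Subtype.ext (Matrix.ext fun i j => ?_)) ?_
    · rw [Prod.smul_fst, Prod.fst_sum, Submodule.coe_smul, Submodule.coe_sum, Matrix.smul_apply,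
        Matrix.sum_apply, sum_congr rfl (g := fun a : MT.Sgn => mat a i i * mat a j j * v.1.1 i j)
        fun a _ => by
          rw [act_S, lf_snd, mat_Sgn a.2, diagonal_transpose, mul_diagonal, diagonal_mul,
            diagonal_apply_eq, diagonal_apply_eq]
          ring, ← sum_mul, sum_mat]
      change diagonal v.1.1.diag i j = _
      rw [diagonal_apply, smul_eq_mul]
      split_ifs with h
      · rw [← h, diag_apply]; ring
      · ring
    · rw [Prod.smul_snd, Prod.snd_sum, sum_eq_zero fun _ _ => Prod.mk_zero_zero, smul_zero]; rfl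
  rw [this, map_sum, PD]
  refine sum_congr rfl fun a _ => ?_
  rw [map_smul, map_mul, T, P_rG, ← algebraMap_smul ℂ (4096 : ℝ)⁻¹]
  congr 1
  simp

theorem trace_G (σ : M24) :
    LinearMap.trace ℂ _ (T rG (perm σ) * PD rG) = (MB.fixSet σ.1).card := by
  have : dP ∘ₗ (rK (act (lf (perm σ))) * pS) ∘ₗ dI = toLin' (mat (perm σ)) :=
    LinearMap.ext fun x => funext fun i => by
      rw [LinearMap.comp_apply, LinearMap.comp_apply, act_pS]
      change ((act _).1 (dI x)).1.1 i i = _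
      rw [act_S, lf_snd, toLin'_apply, mul_apply, mulVec, dotProduct]
      refine sum_congr rfl fun j _ => ?_
      change (_ * diagonal x : Matrix Pt Pt ℝ) i j * _ = _
      rw [mul_diagonal, transpose_apply, mat_perm]
      split_ifs <;> ring
  rw [T, P_rG, PD_rG, show rG (act (lf (perm σ))) = bc (rK _) from rfl, ← map_mul, ← map_mul,
    trace_bc, End.mul_eq_comp, ← LinearMap.comp_assoc, LinearMap.trace_comp_comm', this,
    trace_toLin'_eq, card_filter, trace]
  simp only [diag_apply, mat_perm, eq_comm]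
  push_cast
  exact sum_congr rfl fun i _ => by split_ifs <;> simp

theorem min_degree [FiniteDimensional ℂ U] (hz : ρ zz ≠ 1) : 196883 ≤ finrank ℂ U := by
  by_contra hn
  have h : Sm ρ := ⟨by omega, hz⟩
  have := m24 (R := RM ρ) (t := finrank ℂ U - 196884) fun σ hσ => by
    have e1 := (mm_one h.lt h.ne).2
    have e2 := (mm_one sm_rG.lt sm_rG.ne).2
    have e3 : dF ρ rG 1 = mm ρ 0 - mm rG 0 := by
      rw [← df_act (γ := 1) (h := 1) (Or.inl rfl), map_one, df, tP_one, tP_one]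
    rw [trace_RM, ← trace_G, trace_T_PD, trace_T_PD, ← sub_eq_iff_eq_add', ← sum_sub_distrib,
      sum_congr rfl (g := fun _ => (4096 : ℂ)⁻¹ * dF ρ rG 1) fun a _ => by
        rw [← mul_sub, ← dF_perm h sm_rG hσ, ← dF_mul_sgn h sm_rG (perm_mem_Mon σ) a.2]; rfl,
      sum_const, card_Sgn', e3, e1, show mm rG 0 = 300 by rw [finrank_G] at e2; omega]
    push_cast
    ring
  omega

end Cfsg.Agent.Gr.MinD
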